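import Mathlib

set_option autoImplicit false

/-!
A Frobenius pair acting on a `p`-group with all norms trivial: the kernel acts trivially.
-/

namespace CfsgLib.H29.PG

open scoped IsMulCommutative

theorem centralizes_of_splitting_comm {G : Type*} [Group G] [Finite G] (P R : Subgroup G)
    [IsMulCommutative P] (y : G) (h : ℕ) (hh : 0 < h) (hPn : P.Normal)
    (hyR : y ∈ Subgroup.normalizer (R : Set G))
    (hfix : ∀ a ∈ R, ∀ i : ℕ, 0 < i → i < h → a * y ^ i = y ^ i * a → a = 1)
    (hsplit : ∀ v ∈ P, (v * y) ^ h = 1) (hcop : (Nat.card R).Coprime (Nat.card P))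
    (a : G) (ha : a ∈ R) (v : G) (hv : v ∈ P) : a * v = v * a := by
  classical
  haveI : Fintype R := Fintype.ofFinite _
  let c : G → P →* P := fun g =>
    { toFun := fun u => ⟨g * u * g⁻¹, hPn.conj_mem u u.2 g⟩
      map_one' := Subtype.ext (by simp)
      map_mul' := fun u w => Subtype.ext (by simp [mul_assoc]) }
  have hc : ∀ g k u, c (g * k) u = c g (c k u) := fun g k u => Subtype.ext (by simp [c, mul_assoc])
  have hc1 : ∀ u, c 1 u = u := fun u => Subtype.ext (by simp [c])
  have hy : y ^ h = 1 := by simpa using hsplit 1 P.one_mem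
  have hformula : ∀ (u : P) (n : ℕ),
      ((u : G) * y) ^ n = ((∏ i ∈ Finset.range n, c (y ^ i) u : P) : G) * y ^ n := by
    intro u n
    induction n with
    | zero => simp
    | succ n ih =>
      rw [pow_succ ((u : G) * y), ih, Finset.prod_range_succ, Subgroup.coe_mul]
      show _ = _ * (y ^ n * (u : G) * (y ^ n)⁻¹) * _
      rw [pow_succ]
      group
  -- all norms vanish
  have hnorm : ∀ (b : R) (u : P), ∏ i ∈ Finset.range h, c (((b : G) * y * (b : G)⁻¹) ^ i) u = 1 := by
    intro b u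
    have h0 : ∀ w : P, ∏ i ∈ Finset.range h, c (y ^ i) w = 1 := fun w => Subtype.ext (by
      have := hformula w h
      rw [hy, mul_one, hsplit w w.2] at this
      exact this.symm)
    have h1 : ∀ i, c (((b : G) * y * (b : G)⁻¹) ^ i) u = c b (c (y ^ i) (c (b : G)⁻¹ u)) := fun i => by
      rw [conj_pow, hc, hc]
    simp_rw [h1, ← map_prod, h0, map_one]
  set w := ∏ i ∈ Finset.range h, ∏ b : R, c (((b : G) * y * (b : G)⁻¹) ^ i) ⟨v, hv⟩ with hw
  have hw1 : w = 1 := by
    rw [hw, Finset.prod_comm]; exact Finset.prod_eq_one fun b _ => hnorm b _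
  -- the products over `R` are fixed by `a`
  have hRfix : ∀ u : P, c a (∏ b : R, c b u) = ∏ b : R, c b u := by
    intro u
    rw [map_prod]
    simp_rw [← hc]
    exact Fintype.prod_equiv (Equiv.mulLeft ⟨a, ha⟩) _ _ (fun b => rfl)
  have hsum : ∀ i ∈ Finset.range h, ∏ b : R, c (((b : G) * y * (b : G)⁻¹) ^ i) ⟨v, hv⟩ =
      if i = 0 then (⟨v, hv⟩ : P) ^ Nat.card R else ∏ b : R, c b (c (y ^ i) ⟨v, hv⟩) := by
    intro i hi
    split_ifs with h0
    · subst h0
      simp [hc1, Nat.card_eq_fintype_card]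
    · have hyi : y ^ i ∈ Subgroup.normalizer (R : Set G) := Subgroup.pow_mem _ hyR i
      let ψ : R → R := fun b =>
        ⟨(b : G) * (y ^ i * (b : G)⁻¹ * (y ^ i)⁻¹),
          R.mul_mem b.2 ((Subgroup.mem_normalizer_iff.mp hyi _).mp (R.inv_mem b.2))⟩
      have hψ : Function.Bijective ψ := by
        refine Finite.injective_iff_bijective.mp fun b b' hbb => ?_
        have h1 : (b : G) * (y ^ i * (b : G)⁻¹ * (y ^ i)⁻¹) =
            (b' : G) * (y ^ i * (b' : G)⁻¹ * (y ^ i)⁻¹) := congrArg Subtype.val hbb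
        have h2 : ((b' : G)⁻¹ * b) * y ^ i = y ^ i * ((b' : G)⁻¹ * b) := by
          have := congrArg (fun z => (b' : G)⁻¹ * z * y ^ i * b) h1
          simpa [mul_assoc] using this
        exact Subtype.ext (inv_mul_eq_one.mp (hfix _ (R.mul_mem (R.inv_mem b'.2) b.2) i
          (Nat.pos_of_ne_zero h0) (Finset.mem_range.mp hi) h2)).symm
      rw [← Fintype.prod_equiv (Equiv.ofBijective ψ hψ) (fun b => c (ψ b) (c (y ^ i) ⟨v, hv⟩))
        (fun b => c b (c (y ^ i) ⟨v, hv⟩)) (fun b => rfl)]
      refine Finset.prod_congr rfl fun b _ => ?_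
      rw [← hc, conj_pow]
      congr 2
      simp [ψ, mul_assoc]
  rw [hw, Finset.prod_congr rfl hsum, ← Finset.mul_prod_erase _ _ (Finset.mem_range.mpr hh),
    if_pos rfl] at hw1
  have hrest : c a (∏ i ∈ (Finset.range h).erase 0, if i = 0 then (⟨v, hv⟩ : P) ^ Nat.card R
      else ∏ b : R, c b (c (y ^ i) ⟨v, hv⟩)) = ∏ i ∈ (Finset.range h).erase 0,
      if i = 0 then (⟨v, hv⟩ : P) ^ Nat.card R else ∏ b : R, c b (c (y ^ i) ⟨v, hv⟩) := by
    rw [map_prod]
    refine Finset.prod_congr rfl fun i hi => ?_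
    rw [if_neg (Finset.ne_of_mem_erase hi), hRfix]
  rw [eq_inv_of_mul_eq_one_right hw1, map_inv, inv_inj, map_pow] at hrest
  have hv' : c a ⟨v, hv⟩ = ⟨v, hv⟩ := (powCoprime (G := P) hcop.symm).injective hrest
  exact mul_inv_eq_iff_eq_mul.mp (congrArg Subtype.val hv')

theorem centralizes_of_splitting (p : ℕ) [Fact p.Prime] :
    ∀ (n : ℕ) {G : Type*} [Group G] [Finite G] (P R : Subgroup G), Nat.card P = n → P.Normal →
      IsPGroup p P → ∀ (y : G) (h : ℕ), 0 < h → y ∈ Subgroup.normalizer (R : Set G) →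
      (∀ a ∈ R, ∀ i : ℕ, 0 < i → i < h → a * y ^ i = y ^ i * a → a = 1) →
      (∀ v ∈ P, (v * y) ^ h = 1) → (Nat.card R).Coprime (Nat.card P) →
      ∀ a ∈ R, ∀ v ∈ P, a * v = v * a := by
  intro n
  induction n using Nat.strong_induction_on with
  | _ n ih =>
    intro G _ _ P R hn hPn hP y h hh hyR hfix hsplit hcop a ha v hv
    classical
    by_cases hPb : P = ⊥
    · rw [hPb, Subgroup.mem_bot] at hv
      rw [hv, mul_one, one_mul]
    let Z : Subgroup G := P ⊓ Subgroup.centralizer (P : Set G)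
    haveI := hPn
    have hZn : Z.Normal := by
      have : (Subgroup.centralizer (P : Set G)).Normal := by
        refine ⟨fun x hx g => Subgroup.mem_centralizer_iff.mpr fun u hu => ?_⟩
        have h := Subgroup.mem_centralizer_iff.mp hx (g⁻¹ * u * g⁻¹⁻¹) (hPn.conj_mem u hu g⁻¹)
        have := congrArg (fun z => g * z * g⁻¹) h
        simpa [mul_assoc] using this
      exact inferInstanceAs (P ⊓ Subgroup.centralizer (P : Set G)).Normal
    haveI : IsMulCommutative Z :=
      ⟨⟨fun u w => Subtype.ext (Subgroup.mem_centralizer_iff.mp w.2.2 u u.2.1)⟩⟩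
    have hZle : Z ≤ P := inf_le_left
    have hcopZ : (Nat.card R).Coprime (Nat.card Z) :=
      hcop.coprime_dvd_right (Subgroup.card_dvd_of_le hZle)
    have hZfix : ∀ b ∈ R, ∀ u ∈ Z, b * u = u * b := fun b hb u hu =>
      centralizes_of_splitting_comm Z R y h hh hZn hyR hfix (fun u hu => hsplit u (hZle hu)) hcopZ b hb u hu
    have hZ1 : Z ≠ ⊥ := by
      haveI : Nontrivial P := (Subgroup.nontrivial_iff_ne_bot P).mpr hPb
      haveI := hP.center_nontrivial
      obtain ⟨⟨z, hz⟩, hz1⟩ := exists_ne (1 : Subgroup.center P)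
      intro hb
      apply hz1
      have hmem : (z : G) ∈ Z := ⟨z.2, Subgroup.mem_centralizer_iff.mpr fun u hu =>
        congrArg Subtype.val (Subgroup.mem_center_iff.mp hz ⟨u, hu⟩)⟩
      rw [hb, Subgroup.mem_bot] at hmem
      exact Subtype.ext (Subtype.ext hmem)
    set π := QuotientGroup.mk' Z with hπ
    have hlt : Nat.card (P.map π) < n := by
      have h1 : Nat.card Z * Z.relIndex P = Nat.card P := by
        have := (Z.subgroupOf P).card_mul_index
        rwa [Nat.card_congr (Subgroup.subgroupOfEquivOfLe hZle).toEquiv] at this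
      have h2 : Z.relIndex P = Nat.card (P.map π) :=
        (congrArg (fun L => L.relIndex P) (QuotientGroup.ker_mk' Z)).symm.trans (Subgroup.relIndex_ker P π)
      have hZc : 1 < Nat.card Z := (Subgroup.one_lt_card_iff_ne_bot _).mpr hZ1
      have hpos : 0 < Nat.card (P.map π) := Nat.card_pos
      rw [← hn, ← h1, h2]
      exact lt_mul_of_one_lt_left hpos hZc
    have hRZ : ∀ x ∈ R, x ∈ Z → x = 1 := fun x hx hxZ => orderOf_eq_one_iff.mp
      (Nat.eq_one_of_dvd_coprimes hcopZ (Subgroup.orderOf_dvd_natCard _ hx)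
        (Subgroup.orderOf_dvd_natCard _ hxZ))
    have hih := ih _ hlt (P.map π) (R.map π) rfl (hPn.map π (QuotientGroup.mk'_surjective _))
      (hP.map π) (π y) h hh (Subgroup.le_normalizer_map π (Subgroup.mem_map_of_mem π hyR))
      (by
        rintro _ ⟨b, hb, rfl⟩ i hi0 hih hcomm
        have hyi : y ^ i ∈ Subgroup.normalizer (R : Set G) := Subgroup.pow_mem _ hyR i
        have hmem : b⁻¹ * (y ^ i * b * (y ^ i)⁻¹) ∈ R :=
          R.mul_mem (R.inv_mem hb) ((Subgroup.mem_normalizer_iff.mp hyi b).mp hb)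
        have hk : π (b⁻¹ * (y ^ i * b * (y ^ i)⁻¹)) = 1 := by
          simp only [map_mul, map_inv, map_pow, ← hcomm]
          group
        have h1 := hRZ _ hmem ((QuotientGroup.eq_one_iff _).mp hk)
        have h2 : b * y ^ i = y ^ i * b := by
          rw [inv_mul_eq_one] at h1
          exact eq_mul_inv_iff_mul_eq.mp h1
        rw [hfix b hb i hi0 hih h2, map_one])
      (by
        rintro _ ⟨u, hu, rfl⟩
        rw [← map_mul, ← map_pow, hsplit u hu, map_one])
      ((hcop.coprime_dvd_left (Subgroup.card_map_dvd _ _)).coprime_dvd_right (Subgroup.card_map_dvd _ _))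
    have hz : ∀ b ∈ R, b * v * b⁻¹ * v⁻¹ ∈ Z := fun b hb => by
      refine (QuotientGroup.eq_one_iff _).mp ?_
      show π _ = 1
      have := hih (π b) (Subgroup.mem_map_of_mem π hb) (π v) (Subgroup.mem_map_of_mem π hv)
      simp only [map_mul, map_inv, this]
      group
    set z := a * v * a⁻¹ * v⁻¹ with hzdef
    have hzZ := hz a ha
    rw [← hzdef] at hzZ
    have hstep : ∀ k : ℕ, a ^ k * v * (a ^ k)⁻¹ = z ^ k * v := by
      intro k
      induction k with
      | zero => simp
      | succ k ihk =>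
        have hcomm : a * z ^ k = z ^ k * a := (Commute.pow_right (hZfix a ha z hzZ) k).eq
        calc a ^ (k + 1) * v * (a ^ (k + 1))⁻¹ = a * (a ^ k * v * (a ^ k)⁻¹) * a⁻¹ := by
              rw [pow_succ' a]; group
          _ = z ^ k * (a * v * a⁻¹) := by rw [ihk, ← mul_assoc a, hcomm]; group
          _ = z ^ (k + 1) * v := by rw [hzdef, pow_succ]; group
    have h1 := hstep (Nat.card R)
    rw [show a ^ Nat.card R = 1 from congrArg Subtype.val (pow_card_eq_one' (x := (⟨a, ha⟩ : R)))] at h1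
    have hz1 : z ^ Nat.card R = 1 := by
      simpa using h1.symm
    have : z = 1 := orderOf_eq_one_iff.mp (Nat.eq_one_of_dvd_coprimes hcopZ
      (orderOf_dvd_of_pow_eq_one hz1) (Subgroup.orderOf_dvd_natCard _ hzZ))
    rw [hzdef, mul_inv_eq_one, mul_inv_eq_iff_eq_mul] at this
    exact this

end CfsgLib.H29.PG
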